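import Mathlib
import Cfsg.Agent.Lib.Helper14.Spec.Core
import Cfsg.Agent.Lib.Helper14.Spec.Final
import Cfsg.Agent.Lib.Helper25.Spec.Zsig
import Cfsg.Agent.Lib.Helper25.Spec.Block
import Cfsg.Agent.Lib.Helper25.Spec.Struct
import Cfsg.Agent.Lib.Helper85.Spec.DetSum
import Cfsg.Agent.Lib.Helper85.Spec.Decomp
import Cfsg.Agent.Lib.Helper85.Spec.O3
import Cfsg.Agent.Lib.Helper29.Spec.Model
import Cfsg.Agent.Lib.Helper65.Spec.TorusCyc
import Cfsg.Agent.Lib.Helper29.Spec.TorusDet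
import Cfsg.Agent.Lib.Helper72.Spec.TorusExp
import Cfsg.Agent.Lib.Helper27.Spec.SpTorus
import Cfsg.Agent.Lib.Helper97.Spec.Exist
import Cfsg.Agent.Lib.Helper64.OFus.Sd
import Cfsg.Agent.Lib.Helper72.OFus.Norm
import Cfsg.Agent.Lib.Helper76.OFus.Spin

/-!
# S2362: all packages put together

The packages of the team project SPEC: ZSIG, BLOCK, STRUCT by helper25; DECOMP, DETSUM, O3 by
helper85 (O3 also by helper23); MODEL, TDET, TCYC by helper29 (TDET, TCYC also by helper65);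
TEXP by helper72; SPTORUS by helper27; EXIST by helper97; SD by helper64/helper72/helper76.
-/

set_option autoImplicit false

namespace Cfsg.Agent.Lib.Helper14.Spec

universe u

/-- The core, proved. -/
theorem core : Core.{u} :=
  core_of Cfsg.Agent.Lib.Helper25.Spec.pkgZsig
    (Cfsg.Agent.Lib.Helper25.Spec.pkgStruct Cfsg.Agent.Lib.Helper85.Spec.pkgDecomp
      Cfsg.Agent.Lib.Helper25.Spec.pkgBlock)
    (Cfsg.Agent.Lib.Helper72.Spec.pkgTorusExp Cfsg.Agent.Lib.Helper29.Spec.pkgModel)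
    (Cfsg.Agent.Lib.Helper29.Spec.pkgTorusDet Cfsg.Agent.Lib.Helper29.Spec.pkgModel)
    (Cfsg.Agent.Lib.Helper65.Spec.pkgTorusCyc Cfsg.Agent.Lib.Helper29.Spec.pkgModel)
    Cfsg.Agent.Lib.Helper85.Spec.pkgO3 Cfsg.Agent.Lib.Helper85.Spec.pkgDetSum
    (Cfsg.Agent.Lib.Helper64.OFus.pkgSd Cfsg.Agent.Lib.Helper72.OFus.pkgNorm
      Cfsg.Agent.Lib.Helper76.OFus.pkgSpin)

/-- The existence statement, proved. -/
theorem exist : Exist.{u} :=
  Cfsg.Agent.Lib.Helper97.Spec.pkgExist Cfsg.Agent.Lib.Helper27.Spec.pkgSpTorus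

/-- S2362. -/
theorem s2362 {F : Type u} [Field F] [Fintype F] (hodd : Odd (Fintype.card F)) (n : ℕ)
    (hn : 3 ≤ n) :
    Set.range (orderOf : Cfsg.POmega F (Cfsg.quadFormOdd n F) → ℕ) ≠
      Set.range (orderOf : Cfsg.PSp n F → ℕ) :=
  s2362_of core exist hodd n hn

end Cfsg.Agent.Lib.Helper14.Spec
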